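import Cfsg.Agent.H917.Conj.Basic
import Cfsg.Agent.SmallSimple.SelfCentSum
import Cfsg.Agent.H514.DP.Core

/-!
# The conjugation character: CC-subgroups (helper136, S4792)

* `row_of_cc` : a CC-subgroup `C` of order `t` and `t² (t - 1) ≤ d²` for the degrees `d` of the nontrivial irreducible
  characters;
* `row_of_abelian` : `x ≠ 1`, the centralizers of the elements of prime order of `C_G(x)` are abelian;
* `row_of_minDeg` : the same for simple groups with `MinDeg G d`, `t² (t - 1) ≤ d²`, `|C_G(x)| ≤ t`.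
-/

set_option autoImplicit false

open Cfsg
open scoped ComplexConjugate

namespace Cfsg.Agent.H136.Conj

open Cfsg.Agent.Characters.Core Cfsg.Agent.H430.Conj Cfsg.Agent.SmallSimple.SelfCentSum Cfsg.Agent.H514.DP

universe u

theorem norm_sq_le {G : Type u} [Group G] [Finite G] {χ : G → ℂ} (hχ : IsIrrCharacter G χ) (h1 : χ ≠ 1) (x : G) :
    ‖χ x‖ ^ 2 + 1 ≤ Nat.card (Subgroup.centralizer ({x} : Set G)) := by
  classical
  have := finite_irr (G := G)
  have := Fintype.ofFinite (IrrCharacter G)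
  rw [← sum_norm_sq x]
  have ht : IsIrrCharacter G (1 : G → ℂ) := isIrr_one
  have hne : (⟨χ, hχ⟩ : IrrCharacter G) ≠ ⟨1, ht⟩ := fun h => h1 (congrArg Subtype.val h)
  have h2 : (∑ ψ ∈ ({⟨χ, hχ⟩, ⟨1, ht⟩} : Finset (IrrCharacter G)), ‖(ψ : G → ℂ) x‖ ^ 2 : ℝ) ≤
      ∑ ψ : IrrCharacter G, ‖(ψ : G → ℂ) x‖ ^ 2 :=
    Finset.sum_le_sum_of_subset_of_nonneg (Finset.subset_univ _) fun _ _ _ => by positivity
  rw [Finset.sum_pair hne] at h2
  simpa using h2

/-- **Tool M, basic form.** -/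
theorem row_of_cc {G : Type u} [Group G] [Finite G] {C : Subgroup G} (hC1 : C ≠ ⊥)
    (hC : ∀ c ∈ C, c ≠ 1 → Subgroup.centralizer {c} = C)
    (hd : ∀ (χ : G → ℂ) (d : ℕ), IsIrrCharacter G χ → χ ≠ 1 → χ 1 = d →
      (Nat.card C) ^ 2 * (Nat.card C - 1) ≤ d ^ 2) : Row G := by
  classical
  intro χ hχ
  obtain ⟨x, hx, hx1⟩ := C.bot_or_exists_ne_one.resolve_left hC1
  refine ⟨x, ?_⟩
  rw [hC x hx hx1]
  by_cases h1 : χ = 1
  · rw [h1]
    exact hasFix_one C
  intro h0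
  obtain ⟨d, -, hd1⟩ := isIrr_apply_one hχ
  have hdd := hd χ d hχ h1 hd1
  have := Fintype.ofFinite C
  have ht : 2 ≤ Nat.card C := by
    have : Nontrivial C := (Subgroup.nontrivial_iff_ne_bot C).2 hC1
    exact Finite.one_lt_card
  set t := Nat.card C with htd
  rw [finsum_eq_sum_of_fintype, ← Finset.add_sum_erase _ _ (Finset.mem_univ (1 : C))] at h0
  have h2 : ‖χ 1‖ ≤ ∑ c ∈ Finset.univ.erase (1 : C), ‖χ c‖ := by
    have h3 : χ 1 = - ∑ c ∈ Finset.univ.erase (1 : C), χ c := by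
      rw [OneMemClass.coe_one] at h0
      exact eq_neg_of_add_eq_zero_left h0
    rw [h3, norm_neg]
    exact norm_sum_le _ _
  have h4 : ∀ c ∈ Finset.univ.erase (1 : C), ‖χ c‖ ≤ Real.sqrt (t - 1) := by
    intro c hc
    have hc1 : (c : G) ≠ 1 := fun h => (Finset.ne_of_mem_erase hc) (Subtype.ext h)
    have h5 := norm_sq_le hχ h1 (c : G)
    rw [hC c c.2 hc1] at h5
    exact Real.le_sqrt_of_sq_le (by linarith)
  have h6 := h2.trans (Finset.sum_le_card_nsmul _ _ _ h4)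
  rw [Finset.card_erase_of_mem (Finset.mem_univ _), Finset.card_univ, ← Nat.card_eq_fintype_card, ← htd, hd1,
    Complex.norm_natCast, nsmul_eq_mul, Nat.cast_sub (by omega), Nat.cast_one] at h6
  have ht' : (2 : ℝ) ≤ t := by exact_mod_cast ht
  have h7 : (d : ℝ) ^ 2 ≤ (t - 1) ^ 2 * (t - 1) := by
    calc (d : ℝ) ^ 2 ≤ (((t : ℝ) - 1) * Real.sqrt ((t : ℝ) - 1)) ^ 2 := by gcongr
      _ = ((t : ℝ) - 1) ^ 2 * ((t : ℝ) - 1) := by rw [mul_pow, Real.sq_sqrt (by linarith)]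
  have h8 : (t : ℝ) ^ 2 * (t - 1) ≤ (d : ℝ) ^ 2 := by
    have : (((t ^ 2 * (t - 1) : ℕ)) : ℝ) ≤ ((d ^ 2 : ℕ) : ℝ) := by exact_mod_cast hdd
    rw [Nat.cast_mul, Nat.cast_sub (by omega)] at this
    push_cast at this
    exact this
  nlinarith

/-- `x ≠ 1` and the centralizers of the elements of prime order of `C_G(x)` are abelian: then `C_G(x)` is a
CC-subgroup. -/
theorem cc_of_abelian {G : Type u} [Group G] [Finite G] {x : G} (hx : x ≠ 1)
    (hC : ∀ y : G, (orderOf y).Prime → x * y = y * x → ∀ a b : G, a * y = y * a → b * y = y * b → a * b = b * a) :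
    ∀ c ∈ Subgroup.centralizer ({x} : Set G), c ≠ 1 →
      Subgroup.centralizer {c} = Subgroup.centralizer ({x} : Set G) := by
  have key : ∀ c : G, c ≠ 1 → ∃ y : G, (orderOf y).Prime ∧ ∀ a : G, a * c = c * a → a * y = y * a := by
    intro c hc
    obtain ⟨p, hp, hpc⟩ := Nat.exists_prime_and_dvd (n := orderOf c) (fun h => hc (orderOf_eq_one_iff.1 h))
    refine ⟨c ^ (orderOf c / p), ?_, fun a ha => ?_⟩
    · rw [orderOf_pow_of_dvd (Nat.div_pos (Nat.le_of_dvd (orderOf_pos c) hpc) hp.pos).ne' (Nat.div_dvd_of_dvd hpc),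
        Nat.div_div_self hpc (orderOf_pos c).ne']
      exact hp
    · exact (show Commute a c from ha).pow_right _
  obtain ⟨y, hy, hxy⟩ := key x hx
  intro c hc hc1
  rw [Subgroup.mem_centralizer_singleton_iff] at hc
  obtain ⟨z, hz, hcz⟩ := key c hc1
  have hxz : x * z = z * x := hcz x hc.symm
  ext g
  rw [Subgroup.mem_centralizer_singleton_iff, Subgroup.mem_centralizer_singleton_iff]
  constructor
  · intro hg
    exact hC z hz hxz g x (hcz g hg) hxz
  · intro hg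
    exact hC y hy (hxy x rfl) g c (hxy g hg) (hxy c hc)

theorem row_of_abelian {G : Type u} [Group G] [Finite G] {x : G} (hx : x ≠ 1)
    (hC : ∀ y : G, (orderOf y).Prime → x * y = y * x → ∀ a b : G, a * y = y * a → b * y = y * b → a * b = b * a)
    (hd : ∀ (χ : G → ℂ) (d : ℕ), IsIrrCharacter G χ → χ ≠ 1 → χ 1 = d →
      (Nat.card (Subgroup.centralizer ({x} : Set G))) ^ 2 * (Nat.card (Subgroup.centralizer ({x} : Set G)) - 1) ≤ d ^ 2) :
    Row G := by
  refine row_of_cc (C := Subgroup.centralizer ({x} : Set G)) (fun h => hx ?_) (cc_of_abelian hx hC) hd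
  have h1 : x ∈ Subgroup.centralizer ({x} : Set G) := by
    rw [Subgroup.mem_centralizer_singleton_iff]
  rw [h] at h1
  exact Subgroup.mem_bot.1 h1

/-- **The form for the exceptional groups.** -/
theorem row_of_minDeg {G : Type u} [Group G] [Finite G] [IsSimpleGroup G] (hG : ¬ (Nat.card G).Prime) {x : G}
    (hx : x ≠ 1)
    (hC : ∀ y : G, (orderOf y).Prime → x * y = y * x → ∀ a b : G, a * y = y * a → b * y = y * b → a * b = b * a)
    {t d : ℕ} (ht : Nat.card (Subgroup.centralizer ({x} : Set G)) ≤ t) (hd : MinDeg G d)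
    (h : t ^ 2 * (t - 1) ≤ d ^ 2) : Row G := by
  refine row_of_abelian hx hC fun χ n hχ h1 hn => ?_
  obtain ⟨m, hm, -, hm1⟩ := hd.le hχ fun h2 => h1 (eq_one_of_apply_one hG hχ h2)
  have e : m = n := by exact_mod_cast hm1.symm.trans hn
  subst e
  calc _ ≤ t ^ 2 * (t - 1) := Nat.mul_le_mul (Nat.pow_le_pow_left ht 2) (Nat.sub_le_sub_right ht 1)
    _ ≤ d ^ 2 := h
    _ ≤ m ^ 2 := Nat.pow_le_pow_left hm 2

end Cfsg.Agent.H136.Conj
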